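import Cfsg.Agent.Lib.KPL.Cost
import Cfsg.Agent.S4201

/-!
Bounds for the class numbers of the sections of a group lying above a given subgroup.
-/

set_option autoImplicit false
set_option linter.style.haveILetI false
set_option linter.unusedSectionVars false

namespace Cfsg.Lib.KR

open Subgroup MulAction Cfsg.Lib.SL Cfsg.Lib.KP Cfsg.Lib.DL9

variable {A B : Type*} [Group A] [Group B]

/-- all sections `H / M` with `H ∩ N ≤ M` have at most `b` classes -/
def KM (N : Subgroup A) (b : ℕ) : Prop :=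
  ∀ (H : Subgroup A) (M : Subgroup H) [M.Normal], (∀ h : H, (h : A) ∈ N → h ∈ M) →
    Nat.card (ConjClasses (H ⧸ M)) ≤ b

theorem classes_le_of_surj [Finite A] (π : A →* B) (hπ : Function.Surjective π) :
    Nat.card (ConjClasses B) ≤ Nat.card (ConjClasses A) :=
  Nat.card_le_card_of_surjective _ (ConjClasses.map_surjective hπ)

theorem KM.mono {N N' : Subgroup A} {b b' : ℕ} (h : KM N b) (e : N ≤ N') (e' : b ≤ b') : KM N' b' :=
  fun H M _ hM => (h H M fun x hx => hM x (e hx)).trans e'

variable [Finite A]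

theorem KM.le {N : Subgroup A} {b : ℕ} (h : KM N b) {C Y : Type*} [Group C] [Group Y] (ι : C →* A) (π : C →* Y)
    (hπ : Function.Surjective π) (e : ∀ c, ι c ∈ N → π c = 1) : Nat.card (ConjClasses Y) ≤ b := by
  let π' : ι.range →* Y := ι.rangeRestrict.liftOfSurjective ι.rangeRestrict_surjective
    ⟨π, fun c hc => e c (by rw [show ι c = 1 from congrArg Subtype.val hc]; exact one_mem _)⟩
  have k : ∀ c, π' (ι.rangeRestrict c) = π c := fun c => MonoidHom.liftOfRightInverse_comp_apply _ _ _ _ _
  refine (classes_le_of_surj _ (QuotientGroup.quotientKerEquivOfSurjective π' fun y => ?_).surjective).trans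
    (h _ _ ?_)
  · obtain ⟨c, rfl⟩ := hπ y
    exact ⟨_, k c⟩
  · rintro ⟨_, c, rfl⟩ hc
    exact (k c).trans (e c hc)

theorem km_index {N : Subgroup A} {b : ℕ} (h : N.index ≤ b) : KM N b := fun H M _ hM =>
  (Nat.card_le_card_of_surjective _ ConjClasses.mk_surjective).trans
    (((Nat.le_of_dvd (Nat.pos_of_ne_zero index_ne_zero_of_finite) (index_dvd_of_le (H := N.subgroupOf H) hM)).trans
      (relIndex_le_of_le_right le_top index_ne_zero_of_finite)).trans (by rwa [relIndex_top_right]))

theorem KM.comap {N : Subgroup A} {b : ℕ} (h : KM N b) (f : B →* A) : KM (N.comap f) b := fun H M _ hM =>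
  h.le (f.comp H.subtype) (QuotientGroup.mk' M) (QuotientGroup.mk'_surjective M) fun c hc =>
    (QuotientGroup.eq_one_iff c).2 (hM c hc)

theorem KM.ext {K N : Subgroup A} [K.Normal] {a b : ℕ} (h1 : KM K a) (h2 : KM (N.subgroupOf K) b) :
    KM N (a * b) := fun H M _ hM => by
  haveI := (inferInstance : (K.subgroupOf H).Normal).map _ (QuotientGroup.mk'_surjective M)
  refine (Cfsg.Agent.S4201.result ((K.subgroupOf H).map (QuotientGroup.mk' M))).trans ?_
  rw [mul_comm]
  refine Nat.mul_le_mul (h1.le H.subtype ((QuotientGroup.mk' _).comp (QuotientGroup.mk' M))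
    ((QuotientGroup.mk'_surjective _).comp (QuotientGroup.mk'_surjective M)) fun c hc =>
      (QuotientGroup.eq_one_iff _).2 (mem_map_of_mem _ hc))
    (h2.le ((H.subtype.comp (K.subgroupOf H).subtype).codRestrict K fun c => c.2) (MonoidHom.subgroupMap _ _)
      (MonoidHom.subgroupMap_surjective _ _) fun c hc => Subtype.ext ((QuotientGroup.eq_one_iff _).2 (hM c hc)))

theorem KM.inf {K N : Subgroup A} [K.Normal] {a b : ℕ} (h1 : KM K a) (h2 : KM N b) : KM (K ⊓ N) (a * b) :=
  h1.ext ((h2.comap K.subtype).mono (fun c hc => ⟨c.2, hc⟩) le_rfl)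

theorem km_iInf {ι : Type*} [Fintype ι] {N : ι → Subgroup A} (nN : ∀ j, (N j).Normal) {b : ℕ}
    (h : ∀ j, KM (N j) b) : KM (⨅ j, N j) (b ^ Nat.card ι) := by
  classical
  have : ∀ s : Finset ι, KM (⨅ j ∈ s, N j) (b ^ s.card) := fun s => by
    induction s using Finset.induction_on with
    | empty => exact km_index (by simp)
    | insert j s hj ih =>
      rw [Finset.iInf_insert, Finset.card_insert_of_notMem hj, pow_succ']
      exact (h j).inf ih
  simpa using this Finset.univ

theorem km_cent (Z : Set A) {z c : ℕ} (h1 : (1 : A) ∈ Z) (hz : Z.ncard ≤ z) (c0 : 0 < c)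
    (hc : ∀ a ∉ Z, Nat.card (centralizer {a}) ≤ c) : KM (⊥ : Subgroup A) (z + c - 1) := fun H M _ _ => by
  classical
  haveI := Fintype.ofFinite H
  refine (classes_quot_le M).trans (Nat.le_sub_one_of_lt (Nat.lt_of_mul_lt_mul_right (a := Nat.card H) ?_))
  rw [Cfsg.Lib.FGS.card_classes_mul_card, ← Finset.sum_filter_add_sum_filter_not _ (fun x : H => (x : A) ∈ Z),
    add_mul]
  refine add_lt_add_of_le_of_lt ((Finset.sum_le_card_nsmul _ _ (Nat.card H) fun x _ => card_le_card_group _).trans
    (Nat.mul_le_mul_right _ (le_trans ?_ hz))) (((Finset.sum_le_card_nsmul _ _ c fun x hx => ?_).trans_lt ?_))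
  · rw [← Set.ncard_coe_finset]
    exact Set.ncard_le_ncard_of_injOn Subtype.val (by simp) Subtype.val_injective.injOn
  · rw [Cfsg.Lib.FGS.card_cent1_subtype]
    exact (card_le_of_le inf_le_right).trans (hc _ (Finset.mem_filter.1 hx).2)
  · rw [smul_eq_mul, mul_comm, Nat.card_eq_fintype_card]
    exact Nat.mul_lt_mul_of_pos_left (Finset.card_lt_univ_of_notMem (x := 1) (by simpa using h1)) c0

end Cfsg.Lib.KR
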