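import Mathlib

/-!
Reduction of a finite complex linear group modulo a prime; Maschke's theorem for invariant subspaces.
-/

set_option autoImplicit false
set_option linter.style.haveILetI false

namespace Cfsg.Lib.KR

open Finset

theorem jacobson_int : IsJacobsonRing ℤ := isJacobsonRing_iff_prime_eq.2 fun P hP => by
  by_cases h : P = ⊥
  · subst h
    refine eq_bot_iff.2 fun x hx => ?_
    rcases Int.isUnit_iff.1 (Ideal.mem_jacobson_bot.1 hx x) with h | h
    · exact mul_self_eq_zero.1 (by omega)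
    · nlinarith [mul_self_nonneg x]
  · haveI := hP.isMaximal h
    exact Ideal.jacobson_eq_self_of_isMaximal

theorem finite_field (F : Type*) [Field F] [i : Algebra ℤ F] [h : Algebra.FiniteType ℤ F] : Finite F := by
  obtain rfl : i = Ring.toIntAlgebra F := Subsingleton.elim _ _
  haveI := jacobson_int
  haveI := finite_of_finite_type_of_isJacobsonRing ℤ F
  by_cases h : Function.Injective (algebraMap ℤ F)
  · exact (Int.not_isField ((Algebra.IsIntegral.isField_iff_isField h).2 (Field.toIsField F))).elim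
  · rw [injective_iff_map_eq_zero] at h
    push Not at h
    obtain ⟨k, h1, h2⟩ := h
    exact Module.finite_of_fg_torsion F fun x => ⟨⟨k, mem_nonZeroDivisors_of_ne_zero h2⟩, by
      rw [Submonoid.mk_smul, Algebra.smul_def, h1, zero_mul]⟩

theorem eq_one_of_map {R F ι : Type*} [CommRing R] [IsDomain R] [Field F] [Fintype ι] [DecidableEq ι]
    (φ : R →+* F) {n : ℕ} (hn : (n : F) ≠ 0) {x : Matrix ι ι R} (hx : x ^ n = 1) (e : φ.mapMatrix x = 1) :
    x = 1 := by
  have h1 : (∑ i ∈ range n, x ^ i).det ≠ 0 := fun h => by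
    have := φ.map_det (∑ i ∈ range n, x ^ i)
    simp only [h, map_sum, map_pow, e, one_pow, sum_const, card_range, map_zero] at this
    rw [← Nat.cast_smul_eq_nsmul F, Matrix.det_smul, Matrix.det_one, mul_one] at this
    exact pow_ne_zero _ hn this.symm
  have h2 := geom_sum_mul x n
  rw [hx, sub_self, ← Matrix.mul_zero (∑ i ∈ range n, x ^ i)] at h2
  exact sub_eq_zero.1 ((Matrix.isRegular_of_isLeftRegular_det (IsRegular.of_ne_zero h1).left).left h2)

theorem exists_red {ι : Type} [Fintype ι] [DecidableEq ι] (G : Subgroup (GL ι ℂ)) [Finite G] :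
    ∃ (F : Type) (_ : Field F) (_ : Finite F) (ρ : G →* Matrix ι ι F), Function.Injective ρ ∧
      (Nat.card G : F) ≠ 0 ∧ Nat.card G ∣ Nat.card F - 1 := by
  have n0 : Nat.card G ≠ 0 := Nat.card_pos.ne'
  have hζ := Complex.isPrimitiveRoot_exp _ n0
  generalize Complex.exp _ = ζ at hζ
  let S : Set ℂ := Set.range (fun x : G × ι × ι => (x.1 : GL ι ℂ) x.2.1 x.2.2) ∪ {ζ, (Nat.card G : ℂ)⁻¹}
  let R := Algebra.adjoin ℤ S
  haveI : Algebra.FiniteType ℤ R := .adjoin_of_finite ((Set.finite_range _).union (Set.toFinite _))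
  obtain ⟨m, hm⟩ := Ideal.exists_maximal R
  letI := Ideal.Quotient.field m
  haveI : Algebra.FiniteType ℤ (R ⧸ m) := .of_surjective (Ideal.Quotient.mkₐ ℤ m) Ideal.Quotient.mk_surjective
  haveI := finite_field (R ⧸ m)
  let ρ : G →* Matrix ι ι R :=
    { toFun := fun g => Matrix.of fun i j => ⟨(g : GL ι ℂ) i j, Algebra.subset_adjoin (Or.inl ⟨(g, i, j), rfl⟩)⟩
      map_one' := Matrix.ext fun i j => Subtype.ext (by by_cases h : i = j <;> simp [Matrix.one_apply, h])
      map_mul' := fun a b => Matrix.ext fun i j => Subtype.ext (by simp [Matrix.mul_apply]) }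
  have hn : (Nat.card G : R ⧸ m) ≠ 0 := fun e => by
    have : (Nat.card G : R) * ⟨_, Algebra.subset_adjoin (Or.inr (Or.inr rfl))⟩ = 1 :=
      Subtype.ext (by simp [n0])
    simpa [e] using congrArg (Ideal.Quotient.mk m) this
  refine ⟨R ⧸ m, inferInstance, inferInstance, (Ideal.Quotient.mk m).mapMatrix.toMonoidHom.comp ρ,
    (injective_iff_map_eq_one _).2 fun g e => Subtype.ext (Units.ext (Matrix.ext fun i j => ?_)), hn, ?_⟩
  · have := eq_one_of_map (Ideal.Quotient.mk m) hn (x := ρ g) (by rw [← map_pow, pow_card_eq_one', map_one]) e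
    exact congrArg (fun x : Matrix ι ι R => (x i j : ℂ)) (this.trans (map_one ρ).symm)
  let z : R := ⟨ζ, Algebra.subset_adjoin (Or.inr (Or.inl rfl))⟩
  have z1 : z ^ Nat.card G = 1 := Subtype.ext hζ.pow_eq_one
  have z2 : orderOf (Ideal.Quotient.mk m z) = Nat.card G :=
    (orderOf_eq_iff Nat.card_pos).2 ⟨by rw [← map_pow, z1, map_one], fun i h1 h2 e => by
      have := geom_sum_mul (z ^ i) (Nat.card G)
      rw [← pow_mul, mul_comm i, pow_mul, z1, one_pow, sub_self, mul_eq_zero, sub_eq_zero] at this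
      refine hζ.pow_ne_one_of_pos_of_lt h2.ne' h1 (congrArg Subtype.val (this.resolve_left fun h => hn ?_))
      simpa [e] using congrArg (Ideal.Quotient.mk m) h⟩
  haveI := Fintype.ofFinite (R ⧸ m)
  rw [← z2, Nat.card_eq_fintype_card]
  refine orderOf_dvd_of_pow_eq_one (FiniteField.pow_card_sub_one_eq_one _ fun e => ?_)
  have := z2 ▸ pow_orderOf_eq_one (Ideal.Quotient.mk m z)
  rw [e, zero_pow n0] at this
  exact zero_ne_one this

theorem maschke {G F V : Type*} [Group G] [Finite G] [Field F] [AddCommGroup V] [Module F V]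
    (ρ : G →* Module.End F V) (hn : (Nat.card G : F) ≠ 0) (M : Submodule F V) (hM : ∀ g, ∀ v ∈ M, ρ g v ∈ M) :
    ∃ W : Submodule F V, (∀ g, ∀ v ∈ W, ρ g v ∈ W) ∧ M ⊓ W = ⊥ ∧ M ⊔ W = ⊤ := by
  haveI := Fintype.ofFinite G
  obtain ⟨π, hπ⟩ := M.subtype.exists_leftInverse_of_injective M.ker_subtype
  let P : Module.End F V := (Nat.card G : F)⁻¹ • ∑ g, ρ g * (M.subtype ∘ₗ π) * ρ g⁻¹
  have hP : ∀ v, P v = (Nat.card G : F)⁻¹ • ∑ g, ρ g (π (ρ g⁻¹ v)) := fun v => by simp [P]
  have k : ∀ g v, ρ g (ρ g⁻¹ v) = v := fun g v => by rw [← Module.End.mul_apply, ← map_mul]; simp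
  have h1 : ∀ v, P v ∈ M := fun v => hP v ▸ M.smul_mem _ (sum_mem fun g _ => hM _ _ (π _).2)
  have h2 : ∀ v ∈ M, P v = v := fun v hv => by
    have : ∀ g, ρ g (π (ρ g⁻¹ v)) = v := fun g => (congrArg (fun x : M => ρ g x)
      (DFunLike.congr_fun hπ ⟨_, hM g⁻¹ v hv⟩)).trans (k g v)
    rw [hP, sum_congr rfl fun g _ => this g, sum_const, card_univ, ← Nat.card_eq_fintype_card,
      ← Nat.cast_smul_eq_nsmul F, inv_smul_smul₀ hn]
  refine ⟨LinearMap.ker P, fun a v hv => ?_, eq_bot_iff.2 fun v hv => (h2 v hv.1).symm.trans hv.2,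
    eq_top_iff.2 fun v _ => Submodule.mem_sup.2 ⟨P v, h1 v, v - P v, by
      rw [LinearMap.mem_ker, map_sub, h2 _ (h1 v), sub_self], add_sub_cancel _ _⟩⟩
  have := congrArg (ρ a) (LinearMap.mem_ker.1 hv)
  rw [map_zero, hP, map_smul, map_sum] at this
  rw [LinearMap.mem_ker, hP, ← this, ← Equiv.sum_comp (Equiv.mulLeft a)]
  simp only [Equiv.coe_mulLeft, mul_inv_rev, map_mul, Module.End.mul_apply, (inv_inv a ▸ k a⁻¹ v :)]

end Cfsg.Lib.KR
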