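import Cfsg.Agent.Lib.KR.Tab
import Cfsg.Agent.Lib.KR.Red

/-!
Class numbers of solvable linear groups modulo the Fitting subgroup.
-/

set_option autoImplicit false
set_option linter.style.haveILetI false
set_option linter.unusedSectionVars false

namespace Cfsg.Lib.KR

open Subgroup MulAction Cfsg.Lib.SL Cfsg.Lib.KP Cfsg.Lib.DL9 Cfsg.Lib.KPL
open scoped Pointwise

universe u

/-- `θ` behaves like a generator of the scalars of a splitting field with `N + 1` elements -/
structure Sc {A : Type*} (V : Type*) [Group A] [AddCommGroup V] [DistribMulAction A V] (θ : A) (N : ℕ) : Prop where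
  cen : ∀ (a : A) (v : V), a • θ • v = θ • a • v
  exp : ∀ (a : A) (v : V), a ^ N • v = v
  free : ∀ (i : ℕ) (v : V), v ≠ 0 → θ ^ i • v = v → N ∣ i
  add : (∃ k : ℕ, ∀ v : V, v + θ • v = θ ^ k • v) ∨ ∀ v : V, v + θ • v = 0

section

variable {A V : Type*} [Group A] [AddCommGroup V] [DistribMulAction A V] {θ : A} {N : ℕ}

theorem Sc.tr (h : Sc V θ N) {B W : Type*} [Group B] [AddCommGroup W] [DistribMulAction B W] (f : W →+ V)
    (hf : Function.Injective f) {η : B} (h1 : ∀ w, f (η • w) = θ • f w)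
    (h2 : ∀ b : B, ∃ a : A, ∀ w, f (b • w) = a • f w) : Sc W η N := by
  have k : ∀ {a : A} {b : B}, (∀ w, f (b • w) = a • f w) → ∀ (i : ℕ) w, f (b ^ i • w) = a ^ i • f w :=
    fun e i w => by
      induction i with
      | zero => simp
      | succ i ih => rw [pow_succ', pow_succ', mul_smul, mul_smul, e, ih]
  refine ⟨fun b w => hf ?_, fun b w => hf ?_, fun i w hw e => h.free i (f w) ((map_ne_zero_iff f hf).2 hw)
    (by rw [← k h1, e]), h.add.imp (Exists.imp fun i e w => hf ?_) fun e w => hf ?_⟩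
  · obtain ⟨a, ha⟩ := h2 b
    rw [ha, h1, h1, ha, h.cen]
  · obtain ⟨a, ha⟩ := h2 b
    rw [k ha, h.exp]
  · rw [map_add, h1, k h1, e]
  · rw [map_add, h1, e, map_zero]

theorem Sc.card [Finite V] [Nontrivial V] (h : Sc V θ N) : N + 1 ≤ Nat.card V := by
  obtain ⟨v, hv⟩ := exists_ne (0 : V)
  have := Nat.card_le_card_of_injective (fun i : Fin N => (⟨θ ^ (i : ℕ) • v, mt (smul_eq_zero_iff_eq _).1 hv⟩ :
    {v : V | v ≠ 0})) (Function.Injective.of_lt_imp_ne fun i j hij e => by
      have e1 : θ ^ (i : ℕ) • v = θ ^ (j : ℕ) • v := congrArg Subtype.val e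
      rw [← Nat.add_sub_cancel' (le_of_lt hij : (i : ℕ) ≤ j), pow_add, mul_smul, smul_left_cancel_iff] at e1
      have := Nat.le_of_dvd (Nat.sub_pos_of_lt hij) (h.free _ v hv e1.symm)
      omega)
  rw [Nat.card_coe_set_eq, ncard_ne_zero, Nat.card_eq_fintype_card, Fintype.card_fin] at this
  have := Nat.card_pos (α := V)
  omega

theorem Sc.fix (h : Sc V θ N) {W : AddSubgroup V} [Fintype (orbit A W)] (hW : Indep A W) (j : orbit A W) {w : V}
    (hw : w ∈ (j : AddSubgroup V)) (w0 : w ≠ 0) : θ • j = j := by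
  classical
  by_contra ne
  have m : ∀ (a : A) (k : orbit A W), (Pi.single (a • j) (a • w) : orbit A W → V) k ∈ (k : AddSubgroup V) :=
    fun a k => by
      by_cases e : k = a • j
      · rw [e, Pi.single_eq_same]; exact (orbit_mem a j w).2 hw
      · rw [Pi.single_eq_of_ne e]; exact zero_mem _
  have key : ∀ s : orbit A W → V, (∀ k : orbit A W, s k ∈ (k : AddSubgroup V)) → w + θ • w = ∑ k, s k →
      s j = w ∧ s (θ • j) = θ • w := fun s hs e => by
    have := hW.eq (fun k => add_mem (m 1 k) (m θ k)) hs (by simpa [Finset.sum_add_distrib] using e)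
    simp [← this, ne, Ne.symm ne]
  rcases h.add with ⟨k, e⟩ | e
  · obtain ⟨h1, h2⟩ := key _ (m (θ ^ k)) (by simp [e])
    by_cases e1 : j = θ ^ k • j
    · rw [Pi.single_eq_of_ne (e1 ▸ ne), eq_comm, smul_eq_zero_iff_eq] at h2
      exact w0 h2
    · exact w0 (h1.symm.trans (Pi.single_eq_of_ne e1 _))
  · exact w0 (key 0 (fun _ => zero_mem _) (by simp [e])).1.symm

end

theorem km_R {A : Type u} {V K : Type*} [Group A] [AddCommGroup V] [DistribMulAction A V] [Field K]
    [Module K V] {U R : Subgroup A} (h : Pr V K U R) [Nontrivial V] [FaithfulSMul A V] [Finite A] [Finite V]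
    [Finite K] [Group.IsSolvable A] (hl : lin A V K = ⊤) {e : ℕ} (h5 : U.relIndex R = e ^ 2) :
    KM R (3 ^ (e - 1)) := by
  obtain ⟨M, m1, m2, m3⟩ := exists_M h
  have m4 : U.relIndex M = e := Nat.pow_left_injective two_ne_zero (by
    change _ ^ 2 = e ^ 2
    rw [← h5, ← relIndex_mul_relIndex _ _ _ m1 m2, m3, sq])
  have h3 : 0 < e := m4 ▸ Nat.pos_of_ne_zero index_ne_zero_of_finite
  by_cases h15 : 15 ≤ e
  · have h1 := al_gen h (by rw [h5]; nlinarith)
    have h2 := exp_big' (b := 3) (c := 1) (c' := 4) (k := 6) (j := 1) (e₀ := 15) (by norm_num) (by norm_num)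
      (by norm_num) (by norm_num) h15
    rw [hl, relIndex_top_right, h5, ← pow_mul, show 2 * 3 = 6 from rfl] at h1
    exact km_index (by omega)
  by_cases ok : Ok (e ^ 2)
  · obtain ⟨W, _, _, _, w1, w2, π, -, w3⟩ := exists_mod h
    rw [h5] at w1
    refine (km_cr (w1 ▸ ok) w2).mono (fun a ha => mem_R_of h (hl ▸ mem_top a) fun r hr =>
      (w3 a ⟨r, hr⟩).1 (mem_kerP.1 ha _)) ?_
    rw [w1]
    exact (by decide +kernel : ∀ e < 15, Ok (e ^ 2) → tb (e ^ 2) ≤ 3 ^ (e - 1)) e (by omega) ok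
  obtain ⟨h1, h2, h4⟩ := (by decide +kernel : ∀ e < 15, 0 < e ∧ ¬ Ok (e ^ 2) → (∀ p < 15, p * p ∣ e → p = 1) ∧
    e ≠ 1 ∧ (e ^ 2 - 1) * (e ^ 2 / (e ^ 2).minFac) ≤ 3 ^ (e - 1)) e (by omega) ⟨h3, ok⟩
  have := al_sqf h m1 m2 (m3.trans m4) m4 (fun p hp => isUnit_iff_eq_one.2 (h1 p
    ((Nat.le_of_dvd h3 ((Dvd.intro _ rfl).trans hp)).trans_lt (by omega)) hp)) h2
  rw [hl, relIndex_top_right, h5] at this
  exact km_index (this.trans h4)

theorem km_irr {N : ℕ} (N0 : 0 < N) (n : ℕ) (A V : Type u) [Group A] [Finite A] [Group.IsSolvable A]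
    [AddCommGroup V] [Finite V] [DistribMulAction A V] [FaithfulSMul A V] (hV : Nat.card V = n) (irr : Irr A V)
    {θ : A} (sc : Sc V θ N) : KM (fittingSubgroup A) (3 ^ (Nat.log (N + 1) n - 1)) := by
  induction n using Nat.strong_induction_on generalizing A V with
  | _ n ih =>
  rcases subsingleton_or_nontrivial V with hs | hs
  · haveI : Subsingleton A := ⟨fun a b => eq_of_smul_eq_smul fun v : V => Subsingleton.elim _ _⟩
    rw [Subsingleton.elim (fittingSubgroup A) ⊤]
    exact km_index (index_top.trans_le (Nat.one_le_pow _ _ (by norm_num)))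
  rcases dich' (A := A) (V := V) with ⟨W, h0, h1, hW⟩ | ⟨K, _, _, _, U, R, h⟩
  · haveI := Fintype.ofFinite (orbit A W)
    haveI : Nonempty (orbit A W) := ⟨⟨W, mem_orbit_self W⟩⟩
    have t2 := two_le_orbit irr h0 h1 hW
    have w2 := (AddSubgroup.one_lt_card_iff_ne_bot W).2 h0
    have e := blk_pow irr h0 hW
    have nt : ∀ j : orbit A W, Nontrivial (j : AddSubgroup V) := fun j =>
      Finite.one_lt_card_iff_nontrivial.1 (by rw [blk_card]; exact w2)
    have key : ∀ j : orbit A W, ∃ η : (emb (stabilizer A j) (j : AddSubgroup V)).range,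
        Sc (j : AddSubgroup V) η N := fun j => by
      haveI := nt j
      obtain ⟨w, hw⟩ := exists_ne (0 : (j : AddSubgroup V))
      exact ⟨(emb _ _).rangeRestrict ⟨θ, sc.fix hW j w.2 fun e => hw (Subtype.ext e)⟩,
        sc.tr (AddSubgroup.subtype _) Subtype.val_injective (fun _ => rfl) (by
          rintro ⟨_, a, rfl⟩
          exact ⟨a, fun _ => rfl⟩)⟩
    choose η hη using key
    have l1 : 1 ≤ Nat.log (N + 1) (Nat.card W) := Nat.le_log_of_pow_le (by omega) (by
      haveI := nt ⟨W, mem_orbit_self W⟩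
      exact (pow_one _).trans_le (hη ⟨W, mem_orbit_self W⟩).card)
    refine (km_imp _ (fun j => (Core.fittingSubgroup_normal _).comap (emb _ _).rangeRestrict) (fun j =>
      (ih _ (by rw [← hV, e]; nlinarith [Nat.pow_le_pow_right (zero_lt_one.trans w2) t2]) _ _ (blk_card j)
        (irr_range (blk_irr irr hW j)) (hη j)).comap _) fun a ha => ?_).mono le_rfl ?_
    · let φ : ∀ j : orbit A W, (toPermHom A (orbit A W)).ker →* (emb (stabilizer A j) (j : AddSubgroup V)).range :=
        fun j => (emb _ _).rangeRestrict.comp (inclusion fun _ ha => mem_kerP.1 ha j)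
      let L := ⨅ j, (fittingSubgroup _).comap (φ j)
      refine Core.fittingOf_le_fittingSubgroup _ (mem_map_of_mem _ (Core.le_fittingSubgroup (N := L)
        (normal_iInf_normal fun j => (Core.fittingSubgroup_normal _).comap _) (Core.isNilpotent_of_injective
        (G' := ∀ j : orbit A W, fittingSubgroup (emb (stabilizer A j) (j : AddSubgroup V)).range)
        (MonoidHom.pi fun j => ((φ j).comp L.subtype).codRestrict _ fun b => mem_iInf.1 b.2 j)
        ((injective_iff_map_eq_one _).2 fun b e => Subtype.ext (Subtype.ext (eq_of_smul_eq_smul fun v : V => ?_))))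
        (mem_iInf.2 ha)))
      exact (blk_fix irr h0 (fun j v hv => congrArg (fun g : (Module.End ℤ (j : AddSubgroup V))ˣ =>
        ((g • (⟨v, hv⟩ : (j : AddSubgroup V)) : (j : AddSubgroup V)) : V))
          (congrArg Subtype.val (congrArg Subtype.val (congrFun e j)))) v).trans (one_smul A v).symm
    have h3 := tau_le A (orbit A W)
    have h4 := Nat.le_log_of_pow_le (by omega : 1 < N + 1) ((pow_mul _ _ _).trans_le (Nat.pow_le_pow_left
      (Nat.pow_log_le_self (N + 1) (by omega : Nat.card W ≠ 0)) (Nat.card (orbit A W))))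
    rw [← e, hV] at h4
    obtain ⟨t, ht⟩ := Nat.exists_eq_add_one_of_ne_zero (by omega : Nat.card (orbit A W) ≠ 0)
    obtain ⟨l, hl⟩ := Nat.exists_eq_add_one_of_ne_zero (by omega : Nat.log (N + 1) (Nat.card W) ≠ 0)
    rw [ht, hl] at h4 ⊢
    rw [ht, pow_succ] at h3
    refine (Nat.mul_le_mul_right _ (by omega : _ ≤ 3 ^ t)).trans ?_
    rw [← pow_mul, ← pow_add, Nat.add_sub_cancel]
    exact Nat.pow_le_pow_right (by norm_num) (Nat.le_sub_one_of_lt (by nlinarith))
  obtain ⟨d, e, e1, e0, ed, e2, -⟩ := prim1 h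
  have hc : ∀ a, a * θ = θ * a := fun a => eq_of_smul_eq_smul fun v : V => by rw [mul_smul, mul_smul, sc.cen]
  have h1 : zpowers θ ≤ U := zpowers_le.2 (h.ur.mx {θ} (by simp [hc]) (by simp) (by simp [hc]) rfl)
  obtain ⟨v, hv⟩ := exists_ne (0 : V)
  have h2 : N ≤ Nat.card (zpowers θ) := Nat.card_zpowers θ ▸ Nat.le_of_dvd (orderOf_pos θ)
    (sc.free _ v hv (by rw [pow_orderOf_eq_one, one_smul]))
  have h3 : Nat.card U ≤ N := by
    choose c hc using fun u : U => h.sc u u.2
    haveI := isCyclic_of_injective_ringHom (G := U) (R := K)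
      { toFun := c
        map_one' := smul_left_injective K hv (by simp [← hc])
        map_mul' := fun a b => smul_left_injective K hv (by simp [← hc, mul_smul]) }
      fun a b e => Subtype.ext (eq_of_smul_eq_smul fun v : V => by rw [hc, hc]; exact congrArg (· • v) e)
    rw [← IsCyclic.exponent_eq_card]
    exact Nat.le_of_dvd N0 (Monoid.exponent_dvd_of_forall_pow_eq_one fun u => Subtype.ext
      (eq_of_smul_eq_smul fun v : V => (sc.exp u v).trans (one_smul A v).symm))
  have h4 := eq_of_le_of_card_ge h1 (h3.trans h2)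
  have h5 := h2.trans (h4 ▸ card_U_le h)
  have h6 := Finite.one_lt_card (α := K)
  refine (km_R h (eq_top_iff.2 fun a _ => h.lin a fun u hu => ?_) e2).mono
    (Core.le_fittingSubgroup h.ur.nR (Core.isNilpotent_of_commutator_commutator_eq_bot (eq_bot_iff.2
      ((commutator_mono (commutator_le.2 h.ur.comm) le_rfl).trans (commutator_le.2 fun u hu r hr =>
        commutatorElement_eq_one_iff_mul_comm.2 (h.ur.cU u hu r hr))))))
    (Nat.pow_le_pow_right (by norm_num) (Nat.sub_le_sub_right (ed.trans (Nat.le_log_of_pow_le (by omega)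
      (hV ▸ e1 ▸ Nat.pow_le_pow_left (by omega) _))) _))
  obtain ⟨i, rfl⟩ := h4.ge hu
  exact (Commute.zpow_right (hc a) i).symm

theorem km_top {A : Type*} {V : Type u} [Group A] [Finite A] [Group.IsSolvable A] [AddCommGroup V] [Finite V]
    [DistribMulAction A V] (cr : CR A V) {θ : A} {N : ℕ} (N0 : 0 < N) (sc : Sc V θ N) :
    ∃ L : Subgroup A, L.Normal ∧ KM L (3 ^ (Nat.log (N + 1) (Nat.card V) - 1)) ∧
      ∃ (Y : Type u) (_ : Group Y) (_ : Group.IsNilpotent Y) (ψ : L →* Y), ∀ a, ψ a = 1 → ∀ v : V, (a : A) • v = v := by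
  simpa using cr_ind cr (fun M => ∃ L : Subgroup A, L.Normal ∧ KM L (3 ^ (Nat.log (N + 1) (Nat.card M) - 1)) ∧
      ∃ (Y : Type u) (_ : Group Y) (_ : Group.IsNilpotent Y) (ψ : L →* Y), ∀ a, ψ a = 1 → ∀ v ∈ M, (a : A) • v = v)
    (fun M hM irr => by
      letI := invAct A M hM
      exact ⟨_, (Core.fittingSubgroup_normal _).comap (emb A M).rangeRestrict,
        (km_irr N0 _ _ M rfl (irr_range irr) (θ := (emb A M).rangeRestrict θ)
          (sc.tr M.subtype Subtype.val_injective (fun _ => rfl) (by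
            rintro ⟨_, a, rfl⟩
            exact ⟨a, fun _ => rfl⟩))).comap _, _, _, inferInstance, MonoidHom.subgroupComap _ _, fun a e v hv =>
        congrArg (fun g : (Module.End ℤ M)ˣ => ((g • (⟨v, hv⟩ : M) : M) : V))
          (congrArg Subtype.val (congrArg Subtype.val e))⟩) (by
      rintro M M' - - h0 ⟨L, _, h1, Y, _, _, ψ, h2⟩ ⟨L', _, h3, Y', _, _, ψ', h4⟩
      refine ⟨L ⊓ L', inferInstance, (h1.inf h3).mono le_rfl ?_, Y × Y', _, inferInstance,
        (ψ.comp (inclusion inf_le_left)).prod (ψ'.comp (inclusion inf_le_right)), fun a e v hv => ?_⟩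
      · have := Nat.le_log_of_pow_le (by omega : 1 < N + 1) ((pow_add _ _ _).trans_le ((Nat.mul_le_mul
          (Nat.pow_log_le_self _ Nat.card_pos.ne') (Nat.pow_log_le_self _ Nat.card_pos.ne')).trans (card_sup_ge h0)))
        rw [← pow_add]
        exact Nat.pow_le_pow_right (by norm_num) (by omega)
      · obtain ⟨x, hx, y, hy, rfl⟩ := AddSubgroup.mem_sup.1 hv
        exact (smul_add _ _ _).trans (congrArg₂ _ (h2 _ (congrArg Prod.fst e) x hx) (h4 _ (congrArg Prod.snd e) y hy)))

theorem main (r : ℕ) (G : Subgroup (GL (Fin r) ℂ)) [Finite G] [Group.IsSolvable G] :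
    KM (fittingSubgroup G) (3 ^ (r - 1)) := by
  obtain ⟨F, _, _, ρ, h1, h2, h3⟩ := exists_red G
  letI : DistribMulAction (G × Fˣ) (Fin r → F) :=
    { smul := fun a v => (a.2 : F) • (ρ a.1).mulVec v
      one_smul := fun v => show ((1 : Fˣ) : F) • (ρ 1).mulVec v = v by simp
      mul_smul := fun a b v => show ((a.2 * b.2 : Fˣ) : F) • (ρ (a.1 * b.1)).mulVec v =
        (a.2 : F) • (ρ a.1).mulVec ((b.2 : F) • (ρ b.1).mulVec v) by simp [Matrix.mulVec_smul, mul_smul]
      smul_zero := fun a => show (a.2 : F) • (ρ a.1).mulVec 0 = 0 by simp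
      smul_add := fun a v w => show (a.2 : F) • (ρ a.1).mulVec (v + w) =
        (a.2 : F) • (ρ a.1).mulVec v + (a.2 : F) • (ρ a.1).mulVec w by rw [Matrix.mulVec_add, smul_add] }
  have sm : ∀ (a : G × Fˣ) (v : Fin r → F), a • v = (a.2 : F) • (ρ a.1).mulVec v := fun _ _ => rfl
  obtain ⟨γ, hγ⟩ := IsCyclic.exists_monoid_generator (α := Fˣ)
  have q1 := Finite.one_lt_card (α := F)
  have o : orderOf γ = Nat.card F - 1 :=
    (orderOf_eq_card_of_forall_mem_powers hγ).trans (Nat.card_units F)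
  obtain ⟨L, nL, k1, Y, _, _, ψ, k2⟩ := km_top (A := G × Fˣ) (V := Fin r → F) (θ := (1, γ)) (N := Nat.card F - 1)
    (fun M hM => by
      obtain ⟨W, w1, w2, w3⟩ := maschke (Matrix.toLinAlgEquiv'.toMonoidHom.comp ρ) h2
        ⟨M.toAddSubmonoid, fun c v hv => by
          by_cases c0 : c = 0
          · rw [c0, zero_smul]; exact M.zero_mem
          · simpa [sm] using hM (1, Units.mk0 c c0) v hv⟩ fun g v hv => by simpa [sm] using hM (g, 1) v hv
      exact ⟨W.toAddSubgroup, fun a v hv => W.smul_mem _ (w1 _ _ hv), eq_bot_iff.2 fun v hv => w2.le hv,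
        eq_top_iff.2 fun v _ => AddSubgroup.mem_sup.2 (Submodule.mem_sup.1 (w3.ge trivial))⟩) (by omega)
    ⟨fun a v => by simp [sm, Matrix.mulVec_smul, smul_comm (γ : F)], fun a v => by
      rw [show a ^ (Nat.card F - 1) = 1 from Prod.ext (orderOf_dvd_iff_pow_eq_one.1 ((_root_.orderOf_dvd_natCard _).trans h3))
        (Nat.card_units F ▸ pow_card_eq_one'), one_smul], fun i v hv e => o ▸ orderOf_dvd_of_pow_eq_one
      (Units.ext (smul_left_injective F hv (by simpa [sm] using e))), by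
      by_cases e : 1 + (γ : F) = 0
      · exact Or.inr fun v => by simpa [sm, add_smul] using congrArg (· • v) e
      · obtain ⟨k, hk⟩ := hγ (Units.mk0 _ e)
        exact Or.inl ⟨k, fun v => by simpa [sm, add_smul] using congrArg (fun c : Fˣ => (c : F) • v) hk.symm⟩⟩
  rw [Nat.sub_add_cancel q1.le, Nat.card_fun, Nat.card_eq_fintype_card (α := Fin r), Fintype.card_fin,
    Nat.log_pow q1] at k1
  refine (k1.comap (MonoidHom.inl G Fˣ)).mono (Core.le_fittingSubgroup (nL.comap _)
    (Core.isNilpotent_of_injective (ψ.comp (MonoidHom.subgroupComap _ _)) ((injective_iff_map_eq_one _).2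
      fun a e => Subtype.ext (h1 (Matrix.ext_of_mulVec_single fun i => ?_))))) le_rfl
  have : ((1 : Fˣ) : F) • (ρ a).mulVec (Pi.single i 1) = _ := k2 _ e (Pi.single i 1)
  rwa [OneMemClass.coe_one, map_one, Matrix.one_mulVec, ← one_smul F ((ρ a).mulVec _)]

end Cfsg.Lib.KR
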