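import Cfsg.Agent.Lib.KR.Km
import Cfsg.Agent.Lib.KPL.Main

/-!
Class numbers of subgroups of small solvable linear groups.
-/

set_option autoImplicit false
set_option linter.style.haveILetI false
set_option linter.unusedSectionVars false
set_option synthInstance.maxSize 1000

namespace Cfsg.Lib.KR

open Subgroup MulAction Cfsg.Lib.SL Cfsg.Lib.KP Cfsg.Lib.DL9 Cfsg.Lib.KPL
open scoped Pointwise

universe u

theorem ord_gen {p : ℕ} (hp : p.Prime) (n₀ : ℕ) (b : ℕ → ℕ) (b0 : 1 ≤ b 0)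
    (h1 : ∀ m ≤ n₀, ∀ t ≤ n₀, 0 < m ∧ 2 ≤ t ∧ m * t ≤ n₀ → min t.factorial (3 ^ (t - 1)) * b m ^ t ≤ b (m * t))
    (h2 : ∀ f ≤ n₀, ∀ d ≤ n₀, ∀ e ≤ d, 0 < f ∧ 0 < e ∧ f * d ≤ n₀ ∧ (e = 1 ∨ e.minFac ∣ p ^ f - 1) →
      f * kb e * (p ^ f - 1) ≤ b (f * d)) (n : ℕ) (hn : n ≤ n₀) : OrdB.{u} (p ^ n) (b n) := by
  induction n using Nat.strong_induction_on with
  | _ n ih =>
  intro A V _ _ _ _ _ _ _ hV irr
  rcases subsingleton_or_nontrivial V with hs | hs
  · haveI : Subsingleton A := ⟨fun a b => eq_of_smul_eq_smul fun v : V => Subsingleton.elim _ _⟩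
    rw [Nat.card_of_subsingleton (0 : V), eq_comm, Nat.pow_eq_one] at hV
    rwa [Nat.card_of_subsingleton (1 : A), hV.resolve_left hp.ne_one]
  rcases dich' (A := A) (V := V) with ⟨W, h0, h3, hW⟩ | ⟨K, _, _, _, U, R, h⟩
  · obtain ⟨t, τ, w, t2, w2, e, h4, h5, h6, -⟩ := imp_data irr h0 h3 hW
    obtain ⟨m, rfl, rfl, m0⟩ := pow_eq_pow hp t2 w2 (hV ▸ e)
    have hm : m < m * t := by nlinarith
    refine (h6 _ (ih m hm (by omega))).trans ((Nat.mul_le_mul_right _ (le_min h4 ?_)).trans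
      (h1 m (by omega) t (by nlinarith) ⟨m0, t2, hn⟩))
    obtain ⟨t, rfl⟩ := Nat.exists_eq_add_one_of_ne_zero (by omega : t ≠ 0)
    rw [pow_succ] at h5
    rw [Nat.add_sub_cancel]; omega
  · obtain ⟨f, d, e, j, κ, z, rfl, f0, e0, ed, k1, -, k2, k3, k4, -, k5, -⟩ := prim_data h hp hV
    have := Nat.one_lt_pow f0.ne' hp.one_lt
    rw [k4]
    refine (Nat.mul_le_mul (Nat.mul_le_mul k2 k5) (Nat.le_of_dvd (by omega) k3)).trans
      (h2 f (by nlinarith) d (by nlinarith) e ed ⟨f0, e0, hn, or_iff_not_imp_left.2 fun e1 =>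
        k1 _ (Nat.minFac_prime e1) (Nat.minFac_dvd e)⟩)

theorem ord2 (n : ℕ) (hn : n ≤ 6) : OrdB.{u} (2 ^ n) ([1, 1, 6, 24, 72, 155, 1296].getD n 0) :=
  ord_gen Nat.prime_two 6 ([1, 1, 6, 24, 72, 155, 1296].getD · 0) le_rfl (by decide +kernel) (by decide +kernel) n hn

theorem ord3 (n : ℕ) (hn : n ≤ 4) : OrdB.{u} (3 ^ n) ([1, 2, 48, 96, 4608].getD n 0) :=
  ord_gen Nat.prime_three 4 ([1, 2, 48, 96, 4608].getD · 0) le_rfl (by decide +kernel) (by decide +kernel) n hn

theorem ord5 : OrdB.{u} (5 ^ 1) 4 :=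
  ord_gen Nat.prime_five 1 ([1, 4].getD · 0) le_rfl (by decide +kernel) (by decide +kernel) 1 le_rfl

/-- class number bound for the subgroups of irreducible solvable groups on modules of order `n` -/
def KB (n b : ℕ) : Prop := ∀ (A V : Type u) [Group A] [Finite A] [Group.IsSolvable A] [AddCommGroup V] [Finite V]
  [DistribMulAction A V] [FaithfulSMul A V], Nat.card V = n → Irr A V → KM (⊥ : Subgroup A) b

theorem kb_of {n b : ℕ} (h : OrdB.{u} n b) : KB.{u} n b := fun A V _ _ _ _ _ _ _ hV irr =>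
  km_index (index_bot.trans_le (h A V hV irr))

theorem KB.ker {A : Type*} {V : Type u} [Group A] [Finite A] [Group.IsSolvable A] [AddCommGroup V] [Finite V]
    [DistribMulAction A V] {n b : ℕ} (h : KB.{u} n b) (hV : Nat.card V = n) (irr : Irr A V) :
    KM (toPermHom A V).ker b :=
  ((h _ V hV (irr_range irr)).comap (emb A V).rangeRestrict).mono
    (fun _ ha => ker_emb (A := A) (V := V) ▸ congrArg Subtype.val (mem_bot.1 ha)) le_rfl

theorem km_imp {A : Type*} {V : Type*} [Group A] [Finite A] [AddCommGroup V] [DistribMulAction A V]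
    {W : AddSubgroup V} [Fintype (orbit A W)] {L : Subgroup A} (N : ∀ j : orbit A W, Subgroup (stabilizer A j))
    (nN : ∀ j, (N j).Normal) {b : ℕ} (h : ∀ j, KM (N j) b) (hL : ∀ a : (toPermHom A (orbit A W)).ker,
      (∀ j, ⟨a, mem_kerP.1 a.2 j⟩ ∈ N j) → (a : A) ∈ L) :
    KM L (tau A (orbit A W) * b ^ Nat.card (orbit A W)) :=
  (km_index le_rfl).ext ((km_iInf (N := fun j => (N j).comap (inclusion fun _ ha => mem_kerP.1 ha j))
    (fun j => (nN j).comap _) fun j => (h j).comap _).mono (fun a ha => hL a (mem_iInf.1 ha)) le_rfl)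

theorem kb_sq {p : ℕ} (hp : p.Prime) : KB.{u} (p ^ 2) (p - 1 + (p ^ 2 - 1) - 1) := by
  intro A V _ _ _ _ _ _ _ hV irr
  haveI := Fact.mk hp
  have p1 := Nat.one_lt_pow two_ne_zero hp.one_lt
  haveI : Nontrivial V := Finite.one_lt_card_iff_nontrivial.1 (hV ▸ p1)
  haveI : Module (ZMod p) V := AddCommGroup.zmodModule (irr.nsmul hp (hV ▸ dvd_pow_self p two_ne_zero))
  haveI : SMulCommClass A (ZMod p) V := ⟨fun a c v => ZMod.map_smul (DistribSMul.toAddMonoidHom V a) c v⟩
  haveI := Module.Finite.of_finite (R := ZMod p) (M := V)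
  have hd : Module.finrank (ZMod p) V = 2 := Nat.pow_right_injective hp.two_le (by
    change p ^ _ = p ^ 2
    rw [← hV, Module.natCard_eq_pow_finrank (K := ZMod p), Nat.card_zmod])
  let ρ : A → Module.End (ZMod p) V := DistribSMul.toLinearMap (ZMod p) V
  refine km_cent {a | ∃ c : ZMod p, ρ a = c • 1} ⟨1, LinearMap.ext fun v => by simp [ρ]⟩ ?_ (by omega) fun a ha => ?_
  · obtain ⟨v, hv⟩ := exists_ne (0 : V)
    choose! c hc using fun a : A => (id : (∃ c : ZMod p, ρ a = c • 1) → _)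
    have := ncard_ne_zero (V := ZMod p)
    rw [Nat.card_zmod] at this
    rw [← this]
    refine Set.ncard_le_ncard_of_injOn c (fun a ha e => hv ((smul_eq_zero_iff_eq a).1 ?_))
      fun a ha b hb e => eq_of_smul_eq_smul fun v : V =>
        DFunLike.congr_fun (show ρ a = ρ b by rw [hc a ha, hc b hb, e]) v
    simpa [e, ρ] using DFunLike.congr_fun (hc a ha) v
  · obtain ⟨v, hv⟩ : ∃ v, LinearIndependent (ZMod p) ![v, ρ a v] := by
      by_contra! hc
      exact ha (LinearMap.exists_eq_smul_id_of_forall_notLinearIndependent hc)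
    let β := basisOfLinearIndependentOfCardEqFinrank hv (by simp [hd])
    rw [← hV, ← ncard_ne_zero]
    refine Nat.card_le_card_of_injective (fun b : centralizer {a} => (⟨(b : A) • v, mt (smul_eq_zero_iff_eq _).1
      (hv.ne_zero 0)⟩ : {v : V | v ≠ 0})) fun b c e => Subtype.ext (eq_of_smul_eq_smul fun w : V => ?_)
    have e1 : (b : A) • v = (c : A) • v := congrArg Subtype.val e
    refine DFunLike.congr_fun (β.ext (f₁ := ρ b) (f₂ := ρ c) fun i => ?_) w
    rw [coe_basisOfLinearIndependentOfCardEqFinrank]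
    fin_cases i
    · exact e1
    · change (b : A) • a • v = (c : A) • a • v
      rw [← mul_smul, ← mul_smul, mem_centralizer_singleton_iff.1 b.2, mem_centralizer_singleton_iff.1 c.2,
        mul_smul, mul_smul, e1]

theorem ord_five : orderOf ((2 : ℕ) : ZMod 5) = 4 := (orderOf_eq_iff (by norm_num)).2 (by decide)

theorem kb_sixteen : KB.{u} 16 27 := by
  intro A V _ _ _ _ _ _ _ hV irr
  haveI : Nontrivial V := Finite.one_lt_card_iff_nontrivial.1 (by omega)
  rcases dich' (A := A) (V := V) with ⟨W, h0, h1, hW⟩ | ⟨K, _, _, _, U, R, h⟩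
  · haveI := Fintype.ofFinite (orbit A W)
    have t2 := two_le_orbit irr h0 h1 hW
    obtain ⟨m, e1, e, m0⟩ := pow_eq_pow (n := 4) Nat.prime_two t2 ((AddSubgroup.one_lt_card_iff_ne_bot W).2 h0)
      ((blk_pow irr h0 hW).symm.trans hV).symm
    have key : ∀ b, KB.{u} (2 ^ m) b → KM (⊥ : Subgroup A)
        ((Nat.card (orbit A W)).factorial * b ^ Nat.card (orbit A W)) := fun b hb =>
      (km_imp _ (fun _ => inferInstance) (fun j => hb.ker ((blk_card j).trans e1) (blk_irr irr hW j))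
        fun a ha => eq_of_smul_eq_smul fun v : V => (blk_fix irr h0 (fun j v hv =>
          congrArg Subtype.val (mem_kerP.1 (ha j) ⟨v, hv⟩)) v).trans (one_smul A v).symm).mono le_rfl
        (Nat.mul_le_mul_right _ (tau_le_fact _ _))
    generalize Nat.card (orbit A W) = t at *
    obtain ⟨rfl, rfl⟩ | ⟨rfl, rfl⟩ : m = 1 ∧ t = 4 ∨ m = 2 ∧ t = 2 := by
      have : m ≤ 2 := by nlinarith
      interval_cases m <;> omega
    · exact (key _ (kb_of (ord2 1 (by norm_num)))).mono le_rfl (by decide)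
    · exact (key _ (kb_sq Nat.prime_two)).mono le_rfl (by decide)
  obtain ⟨d, e, e1, e0, ed, e2, e3⟩ := prim1 h
  obtain ⟨f, f4, hf⟩ := (Nat.dvd_prime_pow Nat.prime_two (m := 4)).1
    ((dvd_pow_self (Nat.card K) (by omega : d ≠ 0)).trans (e1.symm.trans hV).dvd)
  have e4 : f * d = 4 := Nat.pow_right_injective le_rfl (by
    change 2 ^ _ = 2 ^ 4
    rw [pow_mul, ← hf, ← e1, hV])
  have d4 : d ≤ 4 := Nat.le_of_dvd (by norm_num) (Dvd.intro_left _ e4)
  obtain rfl : e = 1 := by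
    by_contra hne
    have := e3 _ (Nat.minFac_prime hne) (Nat.minFac_dvd e)
    rw [hf] at this
    have e5 : e ≤ 4 := by omega
    interval_cases f <;> interval_cases d <;> interval_cases e <;> simp at this hne e4
  have hl := lin_le_U h e2
  have h1 : U.index ≤ f := (Nat.le_of_dvd (Nat.pos_of_ne_zero index_ne_zero_of_finite)
    (index_dvd_of_le hl)).trans (lin_index h Nat.prime_two hf)
  have h2 := card_U_dvd h
  have h3 := card_U_le h
  rw [hf] at h2 h3
  by_cases f3 : f ≤ 3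
  · refine km_index ?_
    rw [index_bot, ← U.index_mul_card]
    refine (Nat.mul_le_mul h1 h3).trans ?_
    interval_cases f <;> simp
  obtain rfl : f = 4 := by omega
  refine (km_cent (z := 15) (c := 12) (U : Set A) (one_mem U) ((Nat.card_coe_set_eq _).symm.trans_le h3)
    (by norm_num) fun a ha => ?_).mono le_rfl (by norm_num)
  have h4 : ¬ 5 ∣ Nat.card ↥(U ⊓ centralizer {a}) := fun h5 => by
    haveI := Fact.mk Nat.prime_five
    haveI := Fintype.ofFinite K
    obtain ⟨⟨z, z1, z2⟩, hz⟩ := exists_prime_orderOf_dvd_card' 5 h5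
    rw [← orderOf_coe] at hz
    obtain ⟨ζ, hζ⟩ := h.sc z z1
    obtain ⟨v, hv⟩ := exists_ne (0 : V)
    have z3 : ζ ^ 5 = 1 := smul_left_injective K hv (by
      have := congrArg (· • v) (hz ▸ pow_orderOf_eq_one z)
      simp only [pow_succ, pow_zero, one_mul, mul_smul, hζ] at this ⊢
      simpa using this)
    obtain ⟨i, hi⟩ := semi_pow h Nat.prime_two hf a
    obtain ⟨k, rfl⟩ : 4 ∣ i := ord_five ▸ ord_dvd (i := i) Nat.prime_five z3 (fun e => by
        simp [U_free h z1 hv (by rw [hζ, e, one_smul])] at hz) (smul_left_injective K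
        (mt (smul_eq_zero_iff_eq a).1 hv) (by
          change _ • a • v = ζ • a • v
          rw [← hi, ← hζ, ← hζ, ← mul_smul, ← mem_centralizer_singleton_iff.1 z2, mul_smul]))
    exact ha (hl fun c v => by rw [hi, pow_mul, ← hf, Nat.card_eq_fintype_card, FiniteField.pow_card_pow])
  have h5 : Nat.card ↥(U ⊓ centralizer {a}) ≤ 3 := Nat.le_of_dvd (by norm_num)
    ((Nat.prime_five.coprime_iff_not_dvd.2 h4).symm.dvd_of_dvd_mul_left ((card_dvd_of_le inf_le_left).trans h2))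
  rw [← Cfsg.Lib.BG.card_mul_relIndex (inf_le_right : U ⊓ centralizer {a} ≤ _), inf_relIndex_right]
  exact Nat.mul_le_mul h5 ((relIndex_le_of_le_right le_top index_ne_zero_of_finite).trans
    (relIndex_top_right U ▸ h1))

/-- the table of bounds -/
def tb (n : ℕ) : ℕ := [1, 1, 3, 24, 27, 155, 1296].getD (Nat.log 2 (n.gcd 64)) 0 *
  [1, 2, 9, 96, 4608].getD (Nat.log 3 (n.gcd 81)) 0 * [1, 4, 27].getD (Nat.log 5 (n.gcd 25)) 0

/-- the orders in the table -/
abbrev Ok (n : ℕ) : Prop := n ∣ 144 ∨ n ∣ 64 ∨ n ∣ 81 ∨ n ∣ 25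

theorem Ok.lt {n : ℕ} (h : Ok n) : n < 145 := by
  rcases h with h | h | h | h <;> exact (Nat.le_of_dvd (by norm_num) h).trans_lt (by norm_num)

theorem Ok.of_dvd {m n : ℕ} (h : Ok n) (e : m ∣ n) : Ok m :=
  h.imp e.trans (Or.imp e.trans (Or.imp e.trans e.trans))

theorem tb_mul : ∀ a < 145, ∀ b < 145, Ok (a * b) → tb a * tb b ≤ tb (a * b) := by decide +kernel

theorem ok_cases : ∀ n < 145, Ok n ∧ ¬ (2 ∣ n ∧ 3 ∣ n) → n ∈ [1, 2, 4, 8, 16, 32, 64, 3, 9, 27, 81, 5, 25] := by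
  decide +kernel

theorem kb_tb {n : ℕ} (h : Ok n) : KB.{u} n (tb n) := by
  intro A V _ _ _ _ _ _ _ hV irr
  have := ok_cases n h.lt ⟨h, fun e => by
    haveI : Nontrivial V := Finite.one_lt_card_iff_nontrivial.1 (by
      have := Nat.card_pos (α := V); omega)
    obtain ⟨v, hv⟩ := exists_ne (0 : V)
    have h1 := irr.nsmul Nat.prime_three (hV ▸ e.2) v
    rw [succ_nsmul, irr.nsmul Nat.prime_two (hV ▸ e.1), zero_add] at h1
    exact hv h1⟩
  simp only [List.mem_cons, List.not_mem_nil, or_false] at this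
  rcases this with rfl | rfl | rfl | rfl | rfl | rfl | rfl | rfl | rfl | rfl | rfl | rfl | rfl
  exacts [kb_of (ord2 0 (by norm_num)) A V hV irr, kb_of (ord2 1 (by norm_num)) A V hV irr,
    kb_sq Nat.prime_two A V hV irr, kb_of (ord2 3 (by norm_num)) A V hV irr, kb_sixteen A V hV irr,
    kb_of (ord2 5 (by norm_num)) A V hV irr, kb_of (ord2 6 (by norm_num)) A V hV irr,
    kb_of (ord3 1 (by norm_num)) A V hV irr, kb_sq Nat.prime_three A V hV irr,
    kb_of (ord3 3 (by norm_num)) A V hV irr, kb_of (ord3 4 (by norm_num)) A V hV irr,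
    kb_of ord5 A V hV irr, kb_sq Nat.prime_five A V hV irr]

theorem km_cr {A : Type*} {V : Type u} [Group A] [Finite A] [Group.IsSolvable A] [AddCommGroup V] [Finite V]
    [DistribMulAction A V] (h : Ok (Nat.card V)) (cr : CR A V) : KM (toPermHom A V).ker (tb (Nat.card V)) := by
  have ok : ∀ M : AddSubgroup V, Ok (Nat.card M) := fun M => h.of_dvd M.card_addSubgroup_dvd_card
  obtain ⟨N, -, h1, h2⟩ := cr_ind cr
    (fun M => ∃ N : Subgroup A, N.Normal ∧ KM N (tb (Nat.card M)) ∧ ∀ a ∈ N, ∀ v ∈ M, a • v = v)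
    (fun M hM irr => by
      letI := invAct A M hM
      exact ⟨_, inferInstance, (kb_tb (ok M)).ker rfl irr, fun a ha v hv =>
        congrArg Subtype.val (mem_kerP.1 ha ⟨v, hv⟩)⟩) (by
      rintro M M' - - h0 ⟨N, _, h1, h2⟩ ⟨N', _, h3, h4⟩
      refine ⟨N ⊓ N', inferInstance, (h1.inf h3).mono le_rfl ?_, fun a ha v hv => ?_⟩
      · have := ok (M ⊔ M')
        rw [card_sup_eq h0] at this ⊢
        exact tb_mul _ (ok M).lt _ (ok M').lt this
      · obtain ⟨x, hx, y, hy, rfl⟩ := AddSubgroup.mem_sup.1 hv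
        rw [smul_add, h2 a ha.1 x hx, h4 a ha.2 y hy])
  exact h1.mono (fun a ha => mem_kerP.2 fun v => h2 a ha v trivial) (by rw [AddSubgroup.card_top])

end Cfsg.Lib.KR
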